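import Cfsg.Agent.Lib.Blocks.DefectZero
import Cfsg.Agent.Lib.CharTheory.Orthogonality
import Cfsg.Agent.Lib.CharTheory.Linear
import Cfsg.Agent.Lib.CharTheory.Burnside

/-!
Consequences of having the same degree multiset.
-/

set_option autoImplicit false
set_option linter.unusedSectionVars false
set_option linter.style.haveILetI false

open Cfsg

namespace CfsgLib.DegreeRecogPSL

variable {G H : Type*} [Group G] [Finite G] [Group H] [Finite H]

/-- Equal multiplicities give a degree preserving bijection. -/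
theorem exists_degree_equiv
    (h : ∀ d : ℕ, Nat.card {χ : IrrCharacter G // (χ : G → ℂ) 1 = (d : ℂ)} =
      Nat.card {χ : IrrCharacter H // (χ : H → ℂ) 1 = (d : ℂ)}) :
    ∃ e : IrrCharacter G ≃ IrrCharacter H,
      ∀ χ, charDegree (e χ : H → ℂ) = charDegree (χ : G → ℂ) := by
  have hf : ∀ d : ℕ, Nonempty ({χ : IrrCharacter G // charDegree (χ : G → ℂ) = d} ≃
      {χ : IrrCharacter H // charDegree (χ : H → ℂ) = d}) := fun d => by
    have e₁ : {χ : IrrCharacter G // charDegree (χ : G → ℂ) = d} ≃
        {χ : IrrCharacter G // (χ : G → ℂ) 1 = (d : ℂ)} :=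
      Equiv.subtypeEquivRight fun χ => by rw [← Blocks.charDegree_cast, Nat.cast_inj]
    have e₂ : {χ : IrrCharacter H // charDegree (χ : H → ℂ) = d} ≃
        {χ : IrrCharacter H // (χ : H → ℂ) 1 = (d : ℂ)} :=
      Equiv.subtypeEquivRight fun χ => by rw [← Blocks.charDegree_cast, Nat.cast_inj]
    obtain ⟨e⟩ := Finite.card_eq.1 (h d)
    exact ⟨e₁.trans (e.trans e₂.symm)⟩
  exact ⟨Equiv.ofFiberEquiv (f := fun χ : IrrCharacter G => charDegree (χ : G → ℂ))
      (g := fun χ : IrrCharacter H => charDegree (χ : H → ℂ)) (fun d => (hf d).some),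
    fun χ => Equiv.ofFiberEquiv_map (f := fun χ : IrrCharacter G => charDegree (χ : G → ℂ))
      (g := fun χ : IrrCharacter H => charDegree (χ : H → ℂ)) _ χ⟩

/-- The groups have the same order. -/
theorem card_eq_of_degree_equiv (e : IrrCharacter G ≃ IrrCharacter H)
    (he : ∀ χ, charDegree (e χ : H → ℂ) = charDegree (χ : G → ℂ)) : Nat.card G = Nat.card H := by
  classical
  haveI := Fintype.ofFinite (IrrCharacter G)
  haveI := Fintype.ofFinite (IrrCharacter H)
  have h1 := CharTheory.sum_degree_sq (G := G)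
  rw [Fintype.sum_equiv e (fun χ => (χ : G → ℂ) 1 ^ 2) (fun χ => (χ : H → ℂ) 1 ^ 2) (fun χ => by
    simp only [← Blocks.charDegree_cast, he]), CharTheory.sum_degree_sq] at h1
  exact_mod_cast h1.symm

/-- The commutator quotients have the same order. -/
theorem index_commutator_eq
    (h : ∀ d : ℕ, Nat.card {χ : IrrCharacter G // (χ : G → ℂ) 1 = (d : ℂ)} =
      Nat.card {χ : IrrCharacter H // (χ : H → ℂ) 1 = (d : ℂ)}) :
    (commutator G).index = (commutator H).index := by
  have h1 := h 1
  rw [Nat.cast_one, CharTheory.card_linear, CharTheory.card_linear] at h1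
  exact h1

omit [Finite G] in
/-- In a perfect group the degree-one character is unique. -/
theorem linear_unique (hc : commutator G = ⊤) [Finite G] (χ ψ : IrrCharacter G)
    (h1 : charDegree (χ : G → ℂ) = 1) (h2 : charDegree (ψ : G → ℂ) = 1) : χ = ψ := by
  have hcard : Nat.card {χ : IrrCharacter G // (χ : G → ℂ) 1 = 1} = 1 := by
    rw [CharTheory.card_linear, hc, Subgroup.index_top]
  haveI := (Nat.card_eq_one_iff_unique.1 hcard).1
  exact congrArg Subtype.val (Subsingleton.elim
    (⟨χ, by rw [← Blocks.charDegree_cast, h1, Nat.cast_one]⟩ : {χ : IrrCharacter G // (χ : G → ℂ) 1 = 1})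
    ⟨ψ, by rw [← Blocks.charDegree_cast, h2, Nat.cast_one]⟩)

/-- A perfect group of order 60 has no normal subgroup of order 5. -/
theorem not_normal_five {Q : Type*} [Group Q] [Finite Q] (hQ : Nat.card Q = 60)
    (hc : commutator Q = ⊤) (R : Subgroup Q) (hR : Nat.card R = 5) : ¬ R.Normal := by
  intro hRn
  haveI := hRn
  have hcard : Nat.card (Q ⧸ R) = 12 := by
    have := R.card_mul_index
    rw [hR, hQ, Subgroup.index_eq_card] at this
    omega
  haveI : Nontrivial (Q ⧸ R) := Finite.one_lt_card_iff_nontrivial.1 (by omega)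
  haveI : Group.IsSolvable (Q ⧸ R) :=
    CharTheory.isSolvable_of_card_dvd_pow_mul_pow 2 3 2 1 Nat.prime_two Nat.prime_three
      (by rw [hcard]; norm_num)
  have hlt := Group.IsSolvable.commutator_lt_top_of_nontrivial (Q ⧸ R)
  have hmap : (commutator Q).map (QuotientGroup.mk' R) = commutator (Q ⧸ R) := by
    rw [commutator_def, commutator_def, Subgroup.map_commutator,
      Subgroup.map_top_of_surjective _ (QuotientGroup.mk'_surjective R)]
  rw [hc, Subgroup.map_top_of_surjective _ (QuotientGroup.mk'_surjective R)] at hmap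
  exact hlt.ne hmap.symm

end CfsgLib.DegreeRecogPSL
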