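import Cfsg.Agent.Lib.BrauerCharacters.PSL2Degrees
import Cfsg.Agent.Lib.ClassSizesPSL.PSLFacts
import Cfsg.Agent.Lib.CharTheory.Linear
import Cfsg.Agent.Lib.Blocks.DefectZero

/-!
Facts on the degrees of `PSL₂(q)`, `q ≡ 1 (mod 4)`.
-/

set_option autoImplicit false
set_option linter.unusedSectionVars false
set_option linter.style.haveILetI false

open Matrix Cfsg Finset
open scoped MatrixGroups

namespace CfsgLib.DegreeRecogPSL

variable {F : Type*} [Field F] [Fintype F]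

local notation "PS" => Matrix.ProjectiveSpecialLinearGroup (Fin 2) F

/-- No character of degree `(q - 1)/2` descends to `PSL₂(q)` for `q ≡ 1 (mod 4)`. -/
theorem degree_ne_half_pred {ℓ : ℕ} (hq : Fintype.card F = 2 * ℓ + 1) (hl : Even ℓ) (hl4 : 4 ≤ ℓ)
    (χ : IrrCharacter PS) : charDegree (χ : PS → ℂ) ≠ ℓ := by
  classical
  intro hd
  have h2 : (2 : F) ≠ 0 := CfsgLib.CharDegrees.two_ne_zero_of_odd_card ⟨ℓ, hq⟩
  obtain ⟨C, hT⟩ := CfsgLib.CharDegrees.exists_nonsplitTorus h2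
  haveI := hT.finite_hom
  haveI := Fintype.ofFinite (C →* ℂˣ)
  obtain ⟨-, hC, hcard⟩ := id hT
  haveI := hC
  set χ' := BrauerCharacters.PSL2.inflate χ with hχ'
  have hdeg : (χ' : SL(2, F) → ℂ) 1 = (ℓ : ℂ) := by
    rw [← Blocks.charDegree_cast, BrauerCharacters.PSL2.charDegree_inflate, hd]
  have hF : (Fintype.card F : ℂ) = 2 * (ℓ : ℂ) + 1 := by exact_mod_cast hq
  have hne : ∀ a b : ℕ, a ≠ b → ((a : ℕ) : ℂ) ≠ (b : ℂ) := fun a b hab e => hab (Nat.cast_injective e)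
  rcases hT.irr_trichotomy χ'.2 with ⟨e, -⟩ | ⟨e, -⟩ | ⟨e, -⟩ | ⟨θ, -, -, e, -⟩ | ⟨e, -⟩ | ⟨-, -, hval⟩
  · rw [hdeg] at e; exact hne ℓ 1 (by omega) (by push_cast; linear_combination e)
  · rw [hdeg, hF] at e; exact hne ℓ (2 * ℓ + 1) (by omega) (by push_cast; linear_combination e)
  · rw [hdeg, hF] at e; exact hne ℓ (2 * ℓ + 2) (by omega) (by push_cast; linear_combination e)
  · rw [hdeg, hF] at e; exact hne ℓ (2 * ℓ) (by omega) (by push_cast; linear_combination e)
  · rw [hdeg, hF] at e; exact hne (2 * ℓ) (2 * ℓ + 2) (by omega) (by push_cast; linear_combination e)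
  obtain ⟨g, hg⟩ := IsCyclic.exists_generator (α := C)
  have hgo : orderOf g = Fintype.card F + 1 := by rw [orderOf_eq_card_of_forall_mem_zpowers hg, hcard]
  have hgo' : orderOf (g : SL(2, F)) = Fintype.card F + 1 := by rw [Subgroup.orderOf_coe, hgo]
  have hgm : (g : SL(2, F)) ^ (ℓ + 1) = -1 := by
    refine CfsgLib.SL2.eq_neg_one_of_sq_eq_one h2 ?_ fun e => ?_
    · rw [← pow_mul, show (ℓ + 1) * 2 = orderOf (g : SL(2, F)) by omega, pow_orderOf_eq_one]
    · have := Nat.le_of_dvd (by omega) (orderOf_dvd_of_pow_eq_one e)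
      omega
  have hcen : (g : SL(2, F)) ∉ Subgroup.center (SL(2, F)) := fun hz => by
    have hd2 : orderOf (g : SL(2, F)) ∣ 2 := orderOf_dvd_of_pow_eq_one (by
      rcases BrauerCharacters.PSL2.center_cases hz with e | e <;> rw [e] <;> simp)
    have := Nat.le_of_dvd two_pos hd2
    omega
  set g' : C := hT.negOne * g with hg'
  have hg'v : (g' : SL(2, F)) = -(g : SL(2, F)) := by
    rw [hg', Subgroup.coe_mul]
    show (-1 : SL(2, F)) * _ = _
    simp
  have hcen' : (g' : SL(2, F)) ∉ Subgroup.center (SL(2, F)) := by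
    rw [hg'v]
    intro hz
    refine hcen ?_
    have := Subgroup.mul_mem _ (hT.center_le |> fun _ => hz)
      (Subgroup.mem_center_iff.2 (fun x => by simp) : (-1 : SL(2, F)) ∈ Subgroup.center (SL(2, F)))
    simpa using this
  have hm : (Fintype.card F + 1) / 2 = ℓ + 1 := by omega
  have h1 : (χ' : SL(2, F) → ℂ) g = 1 := by
    rw [hval g hcen, if_neg]
    rw [hm]
    intro e
    have e' : (g : SL(2, F)) ^ (ℓ + 1) = 1 := by
      rw [← SubmonoidClass.coe_pow, e, OneMemClass.coe_one]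
    rw [hgm] at e'
    exact hT.negOne_ne_one (Subtype.ext e')
  have h2' : (χ' : SL(2, F) → ℂ) g' = -1 := by
    rw [hval g' hcen', if_pos]
    rw [hm]
    refine Subtype.ext ?_
    rw [SubmonoidClass.coe_pow, hg'v, OneMemClass.coe_one,
      (show Odd (ℓ + 1) from hl.add_one).neg_pow, hgm, neg_neg]
  have heq : (χ' : SL(2, F) → ℂ) g' = (χ' : SL(2, F) → ℂ) g := by
    rw [hg'v]
    show (χ : PS → ℂ) _ = (χ : PS → ℂ) _
    exact congrArg (χ : PS → ℂ) (CfsgLib.CharDegrees.proj₂_neg _)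
  rw [h1, h2'] at heq
  norm_num at heq

/-- The degrees of `PSL₂(q)`, `q = 2ℓ + 1` with `ℓ` even. -/
theorem degree_cases {ℓ : ℕ} (hq : Fintype.card F = 2 * ℓ + 1) (hl : Even ℓ) (hl4 : 4 ≤ ℓ)
    (χ : IrrCharacter PS) : charDegree (χ : PS → ℂ) = 1 ∨ charDegree (χ : PS → ℂ) = Fintype.card F ∨
      charDegree (χ : PS → ℂ) = 2 * (ℓ + 1) ∨ charDegree (χ : PS → ℂ) = 2 * ℓ ∨
      charDegree (χ : PS → ℂ) = ℓ + 1 := by
  have h := BrauerCharacters.PSL2.degree_cases_odd ⟨ℓ, hq⟩ (BrauerCharacters.PSL2.inflate χ)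
  rw [BrauerCharacters.PSL2.charDegree_inflate] at h
  have := degree_ne_half_pred hq hl hl4 χ
  omega

theorem exists_unit_sq_ne_one (h4 : 4 ≤ Fintype.card F) : ∃ a : F, a ≠ 0 ∧ a ^ 2 ≠ 1 := by
  classical
  obtain ⟨a, ha⟩ : ∃ a : F, a ∉ ({0, 1, -1} : Finset F) := by
    by_contra hno
    push Not at hno
    have h1 : Fintype.card F ≤ #({0, 1, -1} : Finset F) := by
      rw [← Finset.card_univ]; exact Finset.card_le_card fun x _ => hno x
    have : #({0, 1, -1} : Finset F) ≤ 3 := Finset.card_le_three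
    omega
  simp only [Finset.mem_insert, Finset.mem_singleton, not_or] at ha
  refine ⟨a, ha.1, fun e => ?_⟩
  rcases sq_eq_one_iff.1 e with e | e
  exacts [ha.2.1 e, ha.2.2 e]

theorem commutator_eq_top (h4 : 4 ≤ Fintype.card F) : commutator PS = ⊤ :=
  ClassicalLinear.commutator_psl_eq_top (Or.inr (exists_unit_sq_ne_one h4))

end CfsgLib.DegreeRecogPSL
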