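import Cfsg.Agent.Lib.Blocks.DefectZero
import Cfsg.Agent.Lib.CharTheory.Orthogonality
import Cfsg.Agent.Lib.CharTheory.Linear
import Cfsg.Agent.Lib.ClassSizesPSL.Counting
import Cfsg.Agent.Lib.ClassSizesPSL.Zassenhaus
import Cfsg.Agent.Lib.SmallGroups.Basic

/-!
A group of order `q(q² - 1)/2`, `q = p²` odd, with the character degrees of `PSL₂(q)` and only
the trivial character of degree one is `PSL₂(q)`.
-/

set_option autoImplicit false
set_option linter.unusedSectionVars false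
set_option linter.style.haveILetI false

open Finset Cfsg

namespace CfsgLib.DegreeRecogPSL

variable {G : Type*} [Group G] [Finite G]

/-- No element kills the characters outside the degrees divisible by a fixed `d ≥ 2`. -/
theorem eq_one_of_dvd_degree {y : G} {d : ℕ} (hd : 2 ≤ d)
    (huniq : ∀ χ ψ : IrrCharacter G, charDegree (χ : G → ℂ) = 1 → charDegree (ψ : G → ℂ) = 1 → χ = ψ)
    (h : ∀ χ : IrrCharacter G, charDegree (χ : G → ℂ) ≠ 1 → (χ : G → ℂ) y ≠ 0 →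
      d ∣ charDegree (χ : G → ℂ)) : y = 1 := by
  classical
  by_contra hy
  haveI := Fintype.ofFinite G
  haveI := Fintype.ofFinite (IrrCharacter G)
  set χ₀ : IrrCharacter G := ⟨_, CharTheory.isIrrCharacter_one⟩ with hχ₀
  have h0 : charDegree (χ₀ : G → ℂ) = 1 := by simp [charDegree, hχ₀]
  have hsum := CharTheory.sum_degree_mul (G := G) y
  rw [if_neg hy, ← Finset.add_sum_erase _ _ (Finset.mem_univ χ₀)] at hsum
  set X : ℂ := ∑ χ ∈ Finset.univ.erase χ₀,
    ((charDegree (χ : G → ℂ) / d : ℕ) : ℂ) * (χ : G → ℂ) y with hX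
  have hXi : IsIntegral ℤ X := IsIntegral.sum _ fun χ _ =>
    (isIntegral_natCast _).mul (CharTheory.IsCharacter.isIntegral
      (CharTheory.IsIrrCharacter.isCharacter χ.2) y)
  have hrest : ∑ χ ∈ Finset.univ.erase χ₀, (χ : G → ℂ) 1 * (χ : G → ℂ) y = (d : ℂ) * X := by
    rw [hX, Finset.mul_sum]
    refine Finset.sum_congr rfl fun χ hχ => ?_
    by_cases hz : (χ : G → ℂ) y = 0
    · rw [hz, mul_zero, mul_zero, mul_zero]
    obtain ⟨k, hk⟩ := h χ (fun h1 => Finset.ne_of_mem_erase hχ (huniq χ χ₀ h1 h0)) hz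
    rw [← Blocks.charDegree_cast, hk, Nat.mul_div_cancel_left _ (by omega), Nat.cast_mul, mul_assoc]
  rw [hrest] at hsum
  have hd0 : (d : ℂ) ≠ 0 := Nat.cast_ne_zero.2 (by omega)
  have he : ((1 : ℕ) : ℂ) / (d : ℂ) = -X := by
    rw [div_eq_iff hd0]
    simp only [hχ₀] at hsum
    push_cast
    linear_combination hsum
  have h1 : d ∣ 1 := CharTheory.dvd_of_isIntegral_natCast_div (by omega) (he ▸ hXi.neg)
  have := Nat.le_of_dvd one_pos h1
  omega

/-- The hypotheses: order and degrees of `PSL₂(q)`, `q = p² = 2ℓ + 1`. -/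
structure Params (G : Type*) [Group G] (p q ℓ : ℕ) : Prop where
  hp : p.Prime
  hq : q = p ^ 2
  hql : q = 2 * ℓ + 1
  hl : Even ℓ
  hl4 : 4 ≤ ℓ
  hG : Nat.card G = 2 * (q * ℓ * (ℓ + 1))
  hdeg : ∀ χ : IrrCharacter G, charDegree (χ : G → ℂ) = 1 ∨ charDegree (χ : G → ℂ) = q ∨
    charDegree (χ : G → ℂ) = 2 * (ℓ + 1) ∨ charDegree (χ : G → ℂ) = 2 * ℓ ∨
    charDegree (χ : G → ℂ) = ℓ + 1
  huniq : ∀ χ ψ : IrrCharacter G, charDegree (χ : G → ℂ) = 1 → charDegree (ψ : G → ℂ) = 1 → χ = ψ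

namespace Params

variable {p q ℓ : ℕ} (h : Params G p q ℓ)

include h

omit [Finite G] in
theorem cop_qm : Nat.Coprime q (ℓ + 1) := by
  rw [h.hql, show 2 * ℓ + 1 = ℓ + (ℓ + 1) by ring, Nat.coprime_add_self_left]
  exact Nat.coprime_self_add_right.2 (Nat.coprime_one_right _)

omit [Finite G] in
theorem cop_q2l : Nat.Coprime q (2 * ℓ) := by
  rw [h.hql]
  exact Nat.coprime_self_add_left.2 (Nat.coprime_one_left _)

omit [Finite G] in
theorem cop_m2l : Nat.Coprime (ℓ + 1) (2 * ℓ) := by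
  refine Nat.Coprime.mul_right ((Nat.prime_two.coprime_iff_not_dvd).2 ?_).symm ?_
  · obtain ⟨c, hc⟩ := h.hl; omega
  · exact Nat.coprime_self_add_left.2 (Nat.coprime_one_left _)

omit [Finite G] in
theorem q_pos : 0 < q := by rw [h.hql]; omega

omit [Finite G] in
theorem not_dvd_u : ¬ p ∣ 2 * ℓ * (ℓ + 1) := by
  have hco : Nat.Coprime q (2 * ℓ * (ℓ + 1)) := Nat.Coprime.mul_right h.cop_q2l h.cop_qm
  intro hd
  have := Nat.Coprime.eq_one_of_dvd (Nat.Coprime.coprime_dvd_left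
    (h.hq ▸ dvd_pow_self p two_ne_zero) hco) hd
  exact h.hp.one_lt.ne' this

/-- A character with the full `r`-part in its degree `d` vanishes on `r`-singular elements. -/
theorem apply_eq_zero {r : ℕ} (hr : r.Prime) {χ : IrrCharacter G} {d e : ℕ}
    (hd : charDegree (χ : G → ℂ) = d) (hd0 : 0 < d) (he : 2 * (q * ℓ * (ℓ + 1)) = d * e)
    (hre : ¬ r ∣ e) {y : G} (hy : r ∣ orderOf y) : (χ : G → ℂ) y = 0 := by
  haveI : Fact r.Prime := ⟨hr⟩
  refine Blocks.irr_eq_zero_of_full χ ?_ hy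
  rwa [hd, h.hG, he, Nat.mul_div_cancel_left _ hd0]

omit [Finite G] in
theorem not_dvd_of_coprime {r a b : ℕ} (hr : r.Prime) (hab : Nat.Coprime a b) (ha : r ∣ a) :
    ¬ r ∣ b := fun hb =>
  hr.one_lt.ne' ((Nat.Coprime.coprime_dvd_left ha hab).eq_one_of_dvd hb)

theorem deg_q_zero {r : ℕ} (hr : r.Prime) (hrq : r ∣ q) {χ : IrrCharacter G}
    (hd : charDegree (χ : G → ℂ) = q) {y : G} (hy : r ∣ orderOf y) : (χ : G → ℂ) y = 0 := by
  refine h.apply_eq_zero hr hd h.q_pos (e := 2 * ℓ * (ℓ + 1)) (by ring) ?_ hy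
  exact h.not_dvd_of_coprime hr (Nat.Coprime.mul_right h.cop_q2l h.cop_qm) hrq

theorem deg_two_m_zero {r : ℕ} (hr : r.Prime) (hrm : r ∣ ℓ + 1) {χ : IrrCharacter G}
    (hd : charDegree (χ : G → ℂ) = 2 * (ℓ + 1)) {y : G} (hy : r ∣ orderOf y) :
    (χ : G → ℂ) y = 0 := by
  refine h.apply_eq_zero hr hd (by omega) (e := q * ℓ) (by ring) ?_ hy
  intro hd'
  exact h.not_dvd_of_coprime hr (Nat.Coprime.mul_right h.cop_qm.symm h.cop_m2l) hrm
    (hd'.trans (Dvd.intro 2 (by ring)))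

theorem deg_m_zero {r : ℕ} (hr : r.Prime) (hrm : r ∣ ℓ + 1) {χ : IrrCharacter G}
    (hd : charDegree (χ : G → ℂ) = ℓ + 1) {y : G} (hy : r ∣ orderOf y) : (χ : G → ℂ) y = 0 := by
  refine h.apply_eq_zero hr hd (by omega) (e := q * (2 * ℓ)) (by ring) ?_ hy
  exact h.not_dvd_of_coprime hr (Nat.Coprime.mul_right h.cop_qm.symm h.cop_m2l) hrm

theorem deg_two_l_zero {r : ℕ} (hr : r.Prime) (hrl : r ∣ 2 * ℓ) {χ : IrrCharacter G}
    (hd : charDegree (χ : G → ℂ) = 2 * ℓ) {y : G} (hy : r ∣ orderOf y) : (χ : G → ℂ) y = 0 := by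
  have := h.hl4
  refine h.apply_eq_zero hr hd (by omega) (e := q * (ℓ + 1)) (by ring) ?_ hy
  exact h.not_dvd_of_coprime hr (Nat.Coprime.mul_right h.cop_q2l.symm h.cop_m2l.symm) hrl

theorem sep_qm {r s : ℕ} (hr : r.Prime) (hs : s.Prime) (hrq : r ∣ q) (hsm : s ∣ ℓ + 1) {y : G}
    (hy : r ∣ orderOf y) (hy' : s ∣ orderOf y) : y = 1 := by
  refine eq_one_of_dvd_degree (d := 2 * ℓ) (by have := h.hl4; omega) h.huniq fun χ h1 hne => ?_
  rcases h.hdeg χ with e | e | e | e | e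
  · exact absurd e h1
  · exact absurd (h.deg_q_zero hr hrq e hy) hne
  · exact absurd (h.deg_two_m_zero hs hsm e hy') hne
  · rw [e]
  · exact absurd (h.deg_m_zero hs hsm e hy') hne

theorem sep_ql {r s : ℕ} (hr : r.Prime) (hs : s.Prime) (hrq : r ∣ q) (hsl : s ∣ 2 * ℓ) {y : G}
    (hy : r ∣ orderOf y) (hy' : s ∣ orderOf y) : y = 1 := by
  refine eq_one_of_dvd_degree (d := ℓ + 1) (by have := h.hl4; omega) h.huniq fun χ h1 hne => ?_
  rcases h.hdeg χ with e | e | e | e | e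
  · exact absurd e h1
  · exact absurd (h.deg_q_zero hr hrq e hy) hne
  · rw [e]; exact dvd_mul_left _ _
  · exact absurd (h.deg_two_l_zero hs hsl e hy') hne
  · rw [e]

theorem sep_ml {r s : ℕ} (hr : r.Prime) (hs : s.Prime) (hrm : r ∣ ℓ + 1) (hsl : s ∣ 2 * ℓ) {y : G}
    (hy : r ∣ orderOf y) (hy' : s ∣ orderOf y) : y = 1 := by
  refine eq_one_of_dvd_degree (d := q) (by have := h.hl4; have := h.hql; omega) h.huniq
    fun χ h1 hne => ?_
  rcases h.hdeg χ with e | e | e | e | e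
  · exact absurd e h1
  · rw [e]
  · exact absurd (h.deg_two_m_zero hr hrm e hy) hne
  · exact absurd (h.deg_two_l_zero hs hsl e hy') hne
  · exact absurd (h.deg_m_zero hr hrm e hy) hne

omit h in
omit [Finite G] in
/-- Commuting elements of coprime prime orders give an element of the product order. -/
theorem exists_pair {y : G} {r s : ℕ} (hr : r.Prime) (hs : s.Prime) (hrs : r ≠ s) [Finite G]
    (hy : r ∣ orderOf y) (hc : s ∣ Nat.card (Subgroup.centralizer ({y} : Set G))) :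
    ∃ w : G, w ≠ 1 ∧ r ∣ orderOf w ∧ s ∣ orderOf w := by
  haveI : Fact s.Prime := ⟨hs⟩
  obtain ⟨⟨z, hz⟩, hzo⟩ := exists_prime_orderOf_dvd_card' (G := Subgroup.centralizer ({y} : Set G)) s hc
  rw [Subgroup.orderOf_mk] at hzo
  have hpo : orderOf (y ^ (orderOf y / r)) = r := orderOf_pow_orderOf_div (orderOf_pos y).ne' hy
  have hcomm : Commute (y ^ (orderOf y / r)) z :=
    (Commute.pow_right (Subgroup.mem_centralizer_singleton_iff.1 hz) _).symm
  have ho := hcomm.orderOf_mul_eq_mul_orderOf_of_coprime (by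
    rw [hpo, hzo]; exact (Nat.coprime_primes hr hs).2 hrs)
  rw [hpo, hzo] at ho
  refine ⟨_, fun h1 => ?_, ho ▸ dvd_mul_right r s, ho ▸ dvd_mul_left s r⟩
  rw [h1, orderOf_one] at ho
  exact hr.one_lt.ne' (Nat.eq_one_of_mul_eq_one_right ho.symm)

/-- Centralisers of non-identity elements belong to one of the three coprime parts. -/
theorem block (y : G) (hy : y ≠ 1) :
    Nat.card (Subgroup.centralizer ({y} : Set G)) ∣ q ∨
      Nat.card (Subgroup.centralizer ({y} : Set G)) ∣ ℓ + 1 ∨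
      Nat.card (Subgroup.centralizer ({y} : Set G)) ∣ 2 * ℓ := by
  set c := Nat.card (Subgroup.centralizer ({y} : Set G)) with hc
  obtain ⟨r, hr, hry⟩ := Nat.exists_prime_and_dvd (fun e => hy (orderOf_eq_one_iff.1 e))
  have hord : orderOf y ∣ Nat.card G := orderOf_dvd_natCard y
  have hcG : c ∣ 2 * (q * ℓ * (ℓ + 1)) := h.hG ▸ Subgroup.card_subgroup_dvd_card _
  have key : ∀ a b : ℕ, Nat.Coprime a b → r ∣ a →
      (∀ s : ℕ, s.Prime → s ∣ b → ∀ w : G, r ∣ orderOf w → s ∣ orderOf w → w = 1) →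
      Nat.Coprime c b := by
    intro a b hab hra hsep
    refine Nat.coprime_of_dvd fun s hs hsc hsb => ?_
    have hne : r ≠ s := fun e => h.not_dvd_of_coprime hr hab hra (e ▸ hsb)
    obtain ⟨w, hw, hwr, hws⟩ := exists_pair hr hs hne hry hsc
    exact hw (hsep s hs hsb w hwr hws)
  have hrG : r ∣ 2 * ℓ * (q * (ℓ + 1)) := by
    have := hry.trans hord
    rw [h.hG] at this
    rwa [show 2 * ℓ * (q * (ℓ + 1)) = 2 * (q * ℓ * (ℓ + 1)) by ring]
  rcases (Nat.Prime.dvd_mul hr).1 hrG with hrl | hrqm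
  · right; right
    have h1 := key (2 * ℓ) q h.cop_q2l.symm hrl fun s hs hsb w hwr hws =>
      h.sep_ql hs hr hsb hrl hws hwr
    have h2 := key (2 * ℓ) (ℓ + 1) h.cop_m2l.symm hrl fun s hs hsb w hwr hws =>
      h.sep_ml hs hr hsb hrl hws hwr
    refine (h1.mul_right h2).dvd_of_dvd_mul_left (n := 2 * ℓ) ?_
    rwa [show q * (ℓ + 1) * (2 * ℓ) = 2 * (q * ℓ * (ℓ + 1)) by ring]
  rcases (Nat.Prime.dvd_mul hr).1 hrqm with hrq | hrm
  · left
    have h1 := key q (2 * ℓ) h.cop_q2l hrq fun s hs hsb w hwr hws => h.sep_ql hr hs hrq hsb hwr hws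
    have h2 := key q (ℓ + 1) h.cop_qm hrq fun s hs hsb w hwr hws => h.sep_qm hr hs hrq hsb hwr hws
    refine (h1.mul_right h2).dvd_of_dvd_mul_left (n := q) ?_
    rwa [show 2 * ℓ * (ℓ + 1) * q = 2 * (q * ℓ * (ℓ + 1)) by ring]
  · right; left
    have h1 := key (ℓ + 1) (2 * ℓ) h.cop_m2l hrm fun s hs hsb w hwr hws => h.sep_ml hr hs hrm hsb hwr hws
    have h2 := key (ℓ + 1) q h.cop_qm.symm hrm fun s hs hsb w hwr hws => h.sep_qm hs hr hsb hrm hws hwr
    refine (h1.mul_right h2).dvd_of_dvd_mul_left (n := ℓ + 1) ?_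
    rwa [show 2 * ℓ * q * (ℓ + 1) = 2 * (q * ℓ * (ℓ + 1)) by ring]

/-- Centralisers of non-identity elements of `q`-order are abelian Sylow subgroups. -/
theorem centralizer_eq_sylow (P : Sylow p G) {y : G} (hy : y ∈ (P : Subgroup G)) (hy1 : y ≠ 1) :
    Subgroup.centralizer ({y} : Set G) = P := by
  haveI : Fact p.Prime := ⟨h.hp⟩
  have hPc : Nat.card (P : Subgroup G) = q := by
    rw [SmallGroups.card_sylow_eq (m := 2 * ℓ * (ℓ + 1)) (a := 2) (by rw [h.hG, ← h.hq]; ring)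
      h.not_dvd_u P, h.hq]
  have hPab := IsPGroup.commutative_of_card_eq_prime_sq (G := (P : Subgroup G)) (p := p)
    (by rw [hPc, h.hq])
  have hle : (P : Subgroup G) ≤ Subgroup.centralizer ({y} : Set G) := fun z hz =>
    Subgroup.mem_centralizer_singleton_iff.2 (congrArg Subtype.val (hPab ⟨z, hz⟩ ⟨y, hy⟩))
  have hdvd : q ∣ Nat.card (Subgroup.centralizer ({y} : Set G)) := hPc ▸ Subgroup.card_dvd_of_le hle
  refine (Subgroup.eq_of_le_of_card_ge hle ?_).symm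
  rw [hPc]
  rcases h.block y hy1 with e | e | e
  · exact Nat.le_of_dvd h.q_pos e
  · exfalso
    have := Nat.le_of_dvd (by omega) (hdvd.trans e)
    have := h.hql
    have := h.hl4
    omega
  · exfalso
    have := Nat.le_of_dvd (by have := h.hl4; omega) (hdvd.trans e)
    have := h.hql
    omega

/-- The elements with centraliser order `q`. -/
noncomputable def withQ (G : Type*) [Group G] [Fintype G] [DecidableEq G] (q : ℕ) : Finset G :=
  Finset.univ.filter fun y => y ≠ 1 ∧ y ^ q = 1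

omit h [Finite G] in
theorem mem_withQ [Fintype G] [DecidableEq G] {y : G} : y ∈ withQ G q ↔ y ≠ 1 ∧ y ^ q = 1 := by
  simp [withQ]

theorem card_centralizer_withQ [Fintype G] [DecidableEq G] {y : G} (hy : y ∈ withQ G q) :
    Nat.card (Subgroup.centralizer ({y} : Set G)) = q := by
  obtain ⟨hy1, hyq⟩ := mem_withQ.1 hy
  haveI : Fact p.Prime := ⟨h.hp⟩
  obtain ⟨k, -, hk⟩ := (Nat.dvd_prime_pow h.hp).1 (h.hq ▸ orderOf_dvd_of_pow_eq_one hyq)
  obtain ⟨P, hP⟩ := (IsPGroup.of_card (p := p) (n := k)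
    (by rw [Nat.card_zpowers, hk]) : IsPGroup p (Subgroup.zpowers y)).exists_le_sylow
  rw [h.centralizer_eq_sylow P (hP (Subgroup.mem_zpowers y)) hy1,
    SmallGroups.card_sylow_eq (m := 2 * ℓ * (ℓ + 1)) (a := 2) (by rw [h.hG, ← h.hq]; ring)
      h.not_dvd_u P, h.hq]

theorem card_withQ [Fintype G] [DecidableEq G] : #(withQ G q) = 4 * (ℓ * (ℓ + 1)) := by
  have hconj : ∀ y ∈ withQ G q, ∀ g : G, g * y * g⁻¹ ∈ withQ G q := fun y hy g => by
    obtain ⟨h1, h2⟩ := mem_withQ.1 hy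
    refine mem_withQ.2 ⟨fun e => h1 (conj_eq_one_iff.1 e), ?_⟩
    rw [conj_pow, h2]; group
  have hdvd : 2 * ℓ * (ℓ + 1) ∣ #(withQ G q) := by
    refine ClassSizesPSL.dvd_card_of_forall _ hconj fun y hy => ?_
    have e := (Subgroup.centralizer ({y} : Set G)).card_mul_index
    rw [h.card_centralizer_withQ hy, h.hG] at e
    rw [Nat.eq_of_mul_eq_mul_left h.q_pos (e.trans (by ring : _ = q * (2 * ℓ * (ℓ + 1))))]
  obtain ⟨n, hn⟩ := hdvd
  have hq1 : q ∣ 1 + #(withQ G q) :=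
    ClassSizesPSL.dvd_succ_card_pow (h.hG ▸ Dvd.intro (2 * ℓ * (ℓ + 1)) (by ring))
  have hlt : #(withQ G q) < Nat.card G := by
    rw [Nat.card_eq_fintype_card, ← Finset.card_univ]
    exact Finset.card_lt_card (Finset.filter_ssubset.2 ⟨1, Finset.mem_univ 1, by simp⟩)
  rw [h.hG, hn] at hlt
  have hnq : n < q := Nat.lt_of_mul_lt_mul_left (a := 2 * ℓ * (ℓ + 1))
    (hlt.trans_eq (by ring))
  rw [hn] at hq1
  have h2 : (q : ℤ) ∣ 2 - (n : ℤ) := by
    have h3 : (q : ℤ) ∣ 2 * (1 + 2 * (ℓ : ℤ) * (ℓ + 1) * n) :=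
      (by exact_mod_cast hq1 : (q : ℤ) ∣ 1 + 2 * (ℓ : ℤ) * (ℓ + 1) * n).mul_left 2
    have h4 : (q : ℤ) ∣ (2 * (ℓ : ℤ) + 1) * ((2 * (ℓ : ℤ) + 1) * n) :=
      ⟨(2 * (ℓ : ℤ) + 1) * n, by rw [h.hql]; push_cast; ring⟩
    have h5 : (2 - n : ℤ) =
        2 * (1 + 2 * (ℓ : ℤ) * (ℓ + 1) * n) - (2 * (ℓ : ℤ) + 1) * ((2 * (ℓ : ℤ) + 1) * n) := by ring
    rw [h5]
    exact dvd_sub h3 h4
  have hn2 : (2 : ℤ) - n = 0 := by
    by_contra hne
    have hle := Int.le_of_dvd (abs_pos.2 hne) ((dvd_abs _ _).2 h2)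
    have := h.hl4
    have hql : (q : ℤ) = 2 * ℓ + 1 := by exact_mod_cast h.hql
    have hnq' : (n : ℤ) < q := by exact_mod_cast hnq
    rcases abs_cases (2 - (n : ℤ)) with ⟨e, _⟩ | ⟨e, _⟩ <;> omega
  rw [hn, show n = 2 by omega]
  ring

end Params

end CfsgLib.DegreeRecogPSL
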