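import Cfsg.Agent.Lib.DegreeRecogPSL.Separation

/-!
The recognition of `PSL₂(p²)`, `p` odd, from order and degrees.
-/

set_option autoImplicit false
set_option linter.unusedSectionVars false
set_option linter.style.haveILetI false

open Finset Cfsg

namespace CfsgLib.DegreeRecogPSL

/-- A group with the order and degrees of `PSL₂(q)`, `q = p²` odd, is `PSL₂(q)`. -/
theorem Params.exists_iso {G : Type*} [Group G] [Finite G] {p q ℓ : ℕ} (h : Params G p q ℓ) :
    ∃ (K : Type) (_ : Field K) (_ : Fintype K), Fintype.card K = q ∧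
      Nonempty (G ≃* Matrix.ProjectiveSpecialLinearGroup (Fin 2) K) := by
  classical
  haveI := Fintype.ofFinite G
  haveI : Fact p.Prime := ⟨h.hp⟩
  have hl4 := h.hl4
  have hql := h.hql
  obtain ⟨P⟩ := (inferInstance : Nonempty (Sylow p G))
  set Q := (P : Subgroup G) with hQd
  have hQc : Nat.card Q = q := by
    rw [hQd, SmallGroups.card_sylow_eq (m := 2 * ℓ * (ℓ + 1)) (a := 2) (by rw [h.hG, ← h.hq]; ring)
      h.not_dvd_u P, h.hq]
  have hQC : ∀ c ∈ Q, c ≠ 1 → Subgroup.centralizer ({c} : Set G) = Q :=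
    fun c hc hc1 => h.centralizer_eq_sylow P hc hc1
  haveI : Nontrivial Q := Finite.one_lt_card_iff_nontrivial.1 (by omega)
  obtain ⟨⟨x, hxQ⟩, hx1⟩ := exists_ne (1 : Q)
  have hx1' : x ≠ 1 := fun e => hx1 (Subtype.ext e)
  set N := Subgroup.normalizer (Q : Set G) with hNd
  have hmemQ : ∀ c ∈ Q, c ≠ 1 → ∀ g : G, g * c * g⁻¹ ∈ Params.withQ G q := fun c hc hc1 g => by
    refine Params.mem_withQ.2 ⟨fun e => hc1 (conj_eq_one_iff.1 e), ?_⟩
    have hcq : c ^ q = 1 := by
      have := congrArg Subtype.val (pow_card_eq_one' (G := Q) (x := ⟨c, hc⟩))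
      rwa [hQc] at this
    rw [conj_pow, hcq]; group
  let φ : (G ⧸ N) × {c : Q // c ≠ 1} → Params.withQ G q := fun z =>
    ⟨z.1.out * (z.2.1 : G) * z.1.out⁻¹, hmemQ _ z.2.1.2 (fun e => z.2.2 (Subtype.ext e)) _⟩
  have hφ : Function.Bijective φ := by
    constructor
    · rintro ⟨a, c⟩ ⟨b, d⟩ hab'
      have h' : a.out * (c.1 : G) * a.out⁻¹ = b.out * (d.1 : G) * b.out⁻¹ := congrArg Subtype.val hab'
      have he : (b.out⁻¹ * a.out) * (c.1 : G) * (b.out⁻¹ * a.out)⁻¹ = (d.1 : G) := by
        calc (b.out⁻¹ * a.out) * (c.1 : G) * (b.out⁻¹ * a.out)⁻¹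
            = b.out⁻¹ * (a.out * (c.1 : G) * a.out⁻¹) * b.out := by group
          _ = _ := by rw [h']; group
      have hab : b = a := by
        rw [← QuotientGroup.out_eq' a, ← QuotientGroup.out_eq' b]
        refine QuotientGroup.eq.2 ?_
        show _ ∈ Subgroup.normalizer (Q : Set G)
        rw [Subgroup.mem_normalizer_iff]
        intro w
        have hc' := hQC _ c.1.2 (fun e => c.2 (Subtype.ext e))
        have hd' := hQC _ d.1.2 (fun e => d.2 (Subtype.ext e))
        conv_lhs => rw [← hc']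
        conv_rhs => rw [← hd']
        rw [Subgroup.mem_centralizer_singleton_iff, Subgroup.mem_centralizer_singleton_iff, ← he]
        generalize b.out⁻¹ * a.out = g
        rw [show g * w * g⁻¹ * (g * (c.1 : G) * g⁻¹) = g * (w * c.1) * g⁻¹ by group,
          show g * (c.1 : G) * g⁻¹ * (g * w * g⁻¹) = g * (c.1 * w) * g⁻¹ by group]
        exact ⟨fun e => by rw [e], fun e => mul_left_cancel (mul_right_cancel e)⟩
      subst hab
      refine Prod.ext rfl (Subtype.ext (Subtype.ext ?_))
      exact mul_left_cancel (mul_right_cancel h')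
    · rintro ⟨u, hu⟩
      obtain ⟨hu1, -⟩ := Params.mem_withQ.1 hu
      have hxc : Nat.card (Subgroup.centralizer ({x} : Set G)) = q := by rw [hQC x hxQ hx1']; exact hQc
      obtain ⟨g, hg⟩ := ClassSizesPSL.centralizer_conj_of_card_eq (u := 2 * ℓ * (ℓ + 1)) h.hp h.hq
        (by rw [h.hG]; ring) h.not_dvd_u hxc (h.card_centralizer_withQ hu)
      have huQ : g⁻¹ * u * g ∈ Q := by
        rw [← hQC x hxQ hx1']
        exact (hg u).1 (Subgroup.mem_centralizer_singleton_iff.2 rfl)
      obtain ⟨n, hn⟩ := QuotientGroup.mk_out_eq_mul N g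
      have hc' : ((g : G ⧸ N).out)⁻¹ * u * (g : G ⧸ N).out ∈ Q := by
        rw [hn, show (g * (n : G))⁻¹ * u * (g * (n : G)) = (n : G)⁻¹ * (g⁻¹ * u * g) * (n : G) by group]
        exact (Subgroup.mem_normalizer_iff''.1 n.2 _).1 huQ
      refine ⟨(g, ⟨⟨_, hc'⟩, fun e => hu1 ?_⟩), Subtype.ext ?_⟩
      · have e' : ((g : G ⧸ N).out)⁻¹ * u * (g : G ⧸ N).out = 1 := congrArg Subtype.val e
        simpa using conj_eq_one_iff.1 (show ((g : G ⧸ N).out)⁻¹ * u * ((g : G ⧸ N).out)⁻¹⁻¹ = 1 by
          rw [inv_inv]; exact e')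
      · show (g : G ⧸ N).out * (((g : G ⧸ N).out)⁻¹ * u * (g : G ⧸ N).out) * ((g : G ⧸ N).out)⁻¹ = u
        group
  have hidx : N.index = q + 1 := by
    have h1 := Nat.card_congr (Equiv.ofBijective φ hφ)
    rw [Nat.card_prod, ← Subgroup.index_eq_card] at h1
    haveI := Fintype.ofFinite Q
    rw [Nat.card_eq_fintype_card (α := Params.withQ G q), Fintype.card_coe, h.card_withQ,
      Nat.card_eq_fintype_card (α := {c : Q // c ≠ 1}), Fintype.card_subtype_compl,
      Fintype.card_subtype_eq, ← Nat.card_eq_fintype_card, hQc] at h1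
    refine Nat.eq_of_mul_eq_mul_right (show 0 < q - 1 by omega) (h1.trans ?_)
    rw [hql, Nat.add_sub_cancel]
    ring
  have hcN : Nat.card N = q * ℓ := by
    have h1 := N.card_mul_index
    rw [hidx, h.hG] at h1
    refine Nat.eq_of_mul_eq_mul_right (show 0 < q + 1 by omega) (h1.trans ?_)
    rw [hql]
    ring
  have hco : q.Coprime ℓ := Nat.Coprime.coprime_dvd_right (dvd_mul_left ℓ 2) h.cop_q2l
  refine (ClassSizesPSL.recognition Q hQc hQC hidx hcN (by omega) hco (by omega) fun z hz => ?_).1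
    hql.symm
  have hmul := (Subgroup.centralizer ({z} : Set G)).card_mul_index
  rw [h.hG] at hmul
  set c := Nat.card (Subgroup.centralizer ({z} : Set G))
  set i := (Subgroup.centralizer ({z} : Set G)).index
  by_contra hle
  push Not at hle
  have hci : c * i ≤ c * q := Nat.mul_le_mul_left c hle
  have hmain : 2 * (q * ℓ * (ℓ + 1)) ≤ c * q := hmul ▸ hci
  rcases h.block z hz with e | e | e
  · have := Nat.le_of_dvd (by omega) e
    nlinarith
  · have := Nat.le_of_dvd (by omega) e
    nlinarith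
  · have := Nat.le_of_dvd (by omega) e
    nlinarith

end CfsgLib.DegreeRecogPSL
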